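import Mathlib
import Cfsg.Agent.H105.Rl.Lin

/-!
# Cyclic vectors for isometries of prime order in dimension `ee` (helper105, SR-OTOR of S4971)
-/

set_option autoImplicit false
set_option linter.unusedSectionVars false

namespace Cfsg.Agent.H105.Rl

open Module Polynomial Cfsg.Agent.H105.Dp

variable {F V : Type*} [Field F] [Finite F] [AddCommGroup V] [Module F V] [FiniteDimensional F V]

/-- the submodule generated by `v` -/
noncomputable def Wv (x : V →ₗ[F] V) (v : V) : Submodule F V :=
  LinearMap.range ((LinearMap.applyₗ v : (V →ₗ[F] V) →ₗ[F] V) ∘ₗ (aeval x : F[X] →ₐ[F] (V →ₗ[F] V)).toLinearMap)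

theorem mem_Wv {x : V →ₗ[F] V} {v w : V} : w ∈ Wv x v ↔ ∃ f : F[X], aeval x f v = w := Iff.rfl

theorem self_mem (x : V →ₗ[F] V) (v : V) : v ∈ Wv x v := mem_Wv.2 ⟨1, by rw [map_one]; rfl⟩

theorem Wv_inv {x : V →ₗ[F] V} {v w : V} (hw : w ∈ Wv x v) : x w ∈ Wv x v := by
  obtain ⟨f, rfl⟩ := hw
  exact mem_Wv.2 ⟨X * f, by rw [map_mul, aeval_X]; rfl⟩

section

variable {x : V →ₗ[F] V} {r : ℕ} (hr : r.Prime) (hrF : (r : F) ≠ 0) (hxr : x ^ r = 1)
  (hfix : ∀ v, x v = v → v = 0)

include hr hrF hxr hfix in
theorem dvd_finrank_sub (W : Submodule F V) (hW : ∀ w ∈ W, x w ∈ W) :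
    orderOf ((Nat.card F : ℕ) : ZMod r) ∣ finrank F W := by
  refine orderOf_dvd_finrank (g := x.restrict hW) hr hrF ?_ ?_
  · apply LinearMap.ext
    intro w
    apply Subtype.ext
    rw [Module.End.pow_restrict]
    show (x ^ r) (w : V) = w
    rw [hxr]
    rfl
  · intro w hw
    have h1 := congrArg Subtype.val hw
    exact Subtype.ext (hfix w h1)

include hr hrF hxr hfix in
/-- **cyclic vectors** -/
theorem exists_cyc (b : Frm F V) (hs : ∀ v w, b.B v w = b.B w v) (hx : Iso b x) (hr2 : r ≠ 2) {m : ℕ} (hm : 0 < m)
    (hdim : finrank F V = 2 * m)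
    (hord : orderOf ((Nat.card F : ℕ) : ZMod r) = 2 * m ∨ (orderOf ((Nat.card F : ℕ) : ZMod r) = m ∧ Odd m)) :
    ∃ u, Cyc x u := by
  by_contra hcon
  push Not at hcon
  have hne : ∀ v, Wv x v ≠ ⊤ := by
    intro v hv
    obtain hc := hcon v
    apply hc
    intro w
    exact mem_Wv.1 (hv ▸ Submodule.mem_top)
  have hlt : ∀ v, finrank F (Wv x v) < 2 * m := by
    intro v
    rw [← hdim]
    exact Submodule.finrank_lt (lt_top_iff_ne_top.2 (hne v)).ne_top
  -- all cyclic submodules are totally isotropic
  have hiso : ∀ v, ∀ a ∈ Wv x v, ∀ c ∈ Wv x v, b.B a c = 0 := by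
    intro v
    set W := Wv x v with hWdef
    have hWinv : ∀ w ∈ W, x w ∈ W := fun w hw => Wv_inv hw
    have hd := dvd_finrank_sub hr hrF hxr hfix W hWinv
    rcases Nat.eq_zero_or_pos (finrank F W) with h0 | hpos
    · intro a ha c hc
      have : W = ⊥ := Submodule.finrank_eq_zero.1 h0
      rw [this, Submodule.mem_bot] at ha
      rw [ha, map_zero, LinearMap.zero_apply]
    · rcases hord with ho | ⟨ho, hodd⟩
      · rw [ho] at hd
        exact absurd (Nat.le_of_dvd hpos hd) (not_le.2 (hlt v))
      · rw [ho] at hd
        have hWm : finrank F W = m := by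
          obtain ⟨k, hk⟩ := hd
          have h1 := hlt v
          rw [← hWdef, hk] at h1
          have hk0 : 0 < k := by
            rcases Nat.eq_zero_or_pos k with rfl | h
            · omega
            · exact h
          have hk2 : k < 2 := by
            by_contra hc
            have : m * 2 ≤ m * k := Nat.mul_le_mul_left _ (by omega)
            omega
          obtain rfl : k = 1 := by omega
          omega
        -- the radical of `W`
        let rad : Submodule F V :=
          { carrier := {a | a ∈ W ∧ ∀ c ∈ W, b.B a c = 0}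
            add_mem' := fun {a a'} ha ha' => ⟨W.add_mem ha.1 ha'.1, fun c hc => by
              rw [map_add, LinearMap.add_apply, ha.2 c hc, ha'.2 c hc, add_zero]⟩
            zero_mem' := ⟨W.zero_mem, fun c _ => by rw [map_zero, LinearMap.zero_apply]⟩
            smul_mem' := fun s a ha => ⟨W.smul_mem s ha.1, fun c hc => by
              rw [map_smul, LinearMap.smul_apply, ha.2 c hc, smul_zero]⟩ }
        have hpowW : ∀ n : ℕ, ∀ w ∈ W, (x ^ n) w ∈ W := by
          intro n
          induction n with
          | zero => intro w hw; exact hw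
          | succ n ih =>
            intro w hw
            rw [pow_succ]
            exact ih _ (hWinv w hw)
        have hradinv : ∀ w ∈ rad, x w ∈ rad := by
          rintro w ⟨hw1, hw2⟩
          refine ⟨hWinv w hw1, fun c hc => ?_⟩
          have h1 : x ((x ^ (r - 1)) c) = c := by
            have : x * x ^ (r - 1) = 1 := by rw [← pow_succ', Nat.sub_add_cancel hr.pos, hxr]
            exact LinearMap.congr_fun this c
          rw [← h1, hx]
          exact hw2 _ (hpowW _ c hc)
        have hd2 := dvd_finrank_sub hr hrF hxr hfix rad hradinv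
        rw [ho] at hd2
        have hle : rad ≤ W := fun a ha => ha.1
        rcases Nat.eq_zero_or_pos (finrank F rad) with h0 | hpos2
        · -- nondegenerate
          exfalso
          have hbot : rad = ⊥ := Submodule.finrank_eq_zero.1 h0
          let bW : Frm F W :=
            { B := b.B.domRestrict₁₂ W W
              nd := fun a ha => by
                have h1 : (a : V) ∈ rad := ⟨a.2, fun c hc => ha ⟨c, hc⟩⟩
                rw [hbot, Submodule.mem_bot] at h1
                exact Subtype.ext h1
              refl := fun a c h => b.refl a c h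
              alt := fun h a => b.alt h a }
          have h2 : Even (finrank F W) := by
            refine even_finrank bW (g := x.restrict hWinv) (fun a c => hx a c) (hr.odd_of_ne_two hr2) ?_ ?_
            · apply LinearMap.ext
              intro w
              apply Subtype.ext
              rw [Module.End.pow_restrict]
              show (x ^ r) (w : V) = w
              rw [hxr]
              rfl
            · intro w hw
              have h1 := congrArg Subtype.val hw
              exact Subtype.ext (hfix w h1)
          rw [hWm] at h2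
          exact (Nat.not_even_iff_odd.2 hodd) h2
        · have h3 : finrank F rad = finrank F W := by
            have h4 := Nat.le_of_dvd hpos2 hd2
            have h5 := Submodule.finrank_mono hle
            omega
          have h4 := Submodule.eq_of_le_of_finrank_eq hle h3
          intro a ha c hc
          rw [← h4] at ha
          exact ha.2 c hc
  have h1 : ∀ v, b.B v (x v) = 0 := fun v => hiso v _ (self_mem x v) _ (Wv_inv (self_mem x v))
  have h2 : ∀ v w, b.B v (x w) + b.B w (x v) = 0 := by
    intro v w
    have h3 := h1 (v + w)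
    rw [map_add, map_add, map_add, LinearMap.add_apply, LinearMap.add_apply, h1, h1] at h3
    rw [zero_add, add_zero, add_comm] at h3
    exact h3
  have h3 : ∀ w, x (x w) + w = 0 := by
    intro w
    apply b.nd
    intro v
    rw [hs, map_add, ← h2 v (x w), hx, hs w v]
  have h4 : x ^ 4 = 1 := by
    apply LinearMap.ext
    intro w
    have h5 : ∀ w, x (x w) = -w := fun w => eq_neg_of_add_eq_zero_left (h3 w)
    show x (x (x (x w))) = w
    rw [h5, h5, neg_neg]
  have h5 : x = 1 := by
    have h6 : x ^ Nat.gcd 4 r = 1 := pow_gcd_eq_one.2 ⟨h4, hxr⟩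
    have h7 : Nat.gcd 4 r = 1 := by
      have : Nat.Coprime (2 ^ 2) r := Nat.Coprime.pow_left 2 ((Nat.coprime_primes Nat.prime_two hr).2 (Ne.symm hr2))
      exact this
    rwa [h7, pow_one] at h6
  have h6 : ∀ v : V, v = 0 := fun v => hfix v (by rw [h5]; rfl)
  have h7 : finrank F V = 0 := by
    have : Subsingleton V := ⟨fun a c => by rw [h6 a, h6 c]⟩
    exact finrank_zero_of_subsingleton
  omega

end

end Cfsg.Agent.H105.Rl
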